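import Cfsg.Agent.Lib.TS.Prg
import Cfsg.Agent.Lib.Th.MS3

/-!
# The relations hold for matrices in the Thompson group
-/

set_option autoImplicit false
set_option maxRecDepth 1000000
set_option maxHeartbeats 0
set_option Elab.async false

namespace Cfsg.Lib.TS

open Cfsg.Lib.Calc Cfsg.Lib.Big Cfsg.Lib.Th

/-- The generators. -/
noncomputable def gL : List ℕ := [s38, s30, s32, s35, s39, s34, mL6, Th.eM.mul s33 (Th.eM.mul s39 s39), s36, s37]
/-- A generator. -/
noncomputable def gM (i : ℕ) : ℕ := forceN i (F2.nth Th.eM.one gL)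
/-- Normal words. -/
noncomputable def nfM (f : ℕ) : ℕ → ℕ → ℕ :=
  Nat.rec (motive := fun _ => ℕ → ℕ → ℕ) (fun _ _ => Th.eM.one) (fun _ ih i c =>
    forceN (ih (Nat.succ i) (Nat.div c (nat_lit 3))) fun r => ifz (Nat.mod c (nat_lit 3)) r fun d =>
      forceN (Th.eM.mul (gM i) r) fun r' => ifz (Nat.pred d) r' fun _ => Th.eM.mul (gM i) r') f
/-- The conjugation relations for the generator `k`. -/
noncomputable def cjM (k : ℕ) : Bool :=
  allFrom (k + 1) (9 - k) fun j => Nat.beq (Th.eM.mul (gM j) (gM k)) (Th.eM.mul (gM k) (nfM 10 0 (rR k j)))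

theorem cuM : allLt 10 (fun k => Nat.beq (Th.eM.mul (gM k) (Th.eM.mul (gM k) (gM k))) (nfM 10 0 (rP k))) = true := by
  decide +kernel
theorem cjM0 : cjM 0 = true := by decide +kernel
theorem cjM1 : cjM 1 = true := by decide +kernel
theorem cjM2 : cjM 2 = true := by decide +kernel
theorem cjM3 : cjM 3 = true := by decide +kernel
theorem cjM4 : allFrom 4 6 cjM = true := by decide +kernel
theorem s33_eq : Nat.beq s33 (Th.eM.mul (gM 7) (gM 4)) = true := by decide +kernel

end Cfsg.Lib.TS
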