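import Cfsg.Agent.Lib.TS.Ops

/-!
# Programs for subgroups given by arrays

An array is a number with ten fields of sixteen bits.
-/

set_option autoImplicit false

namespace Cfsg.Lib.TS

open Cfsg.Lib.Calc

/-- The entry `i` of an array. -/
def ent (X i : ℕ) : ℕ := Nat.land (Nat.shiftRight X (Nat.shiftLeft i (nat_lit 4))) (nat_lit 65535)
/-- Filling an empty field. -/
def put (X i c : ℕ) : ℕ := Nat.lor X (Nat.shiftLeft c (Nat.shiftLeft i (nat_lit 4)))
/-- Case distinction on zero. -/
noncomputable def ifz {α : Type} (x : ℕ) (a : α) (b : ℕ → α) : α :=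
  Nat.rec (motive := fun _ => α) a (fun m _ => b (Nat.succ m)) x
/-- Negation. -/
noncomputable def bnot (a : Bool) : Bool := Bool.rec true false a
/-- Test for zero. -/
def isz (x : ℕ) : Bool := Nat.beq x (nat_lit 0)

theorem ifz_eq {α : Type} (x : ℕ) (a : α) (b : ℕ → α) : ifz x a b = if x = 0 then a else b x := by
  cases x <;> rfl
theorem bnot_eq_true {a : Bool} : bnot a = true ↔ a = false := by cases a <;> simp [bnot]
theorem isz_iff {x : ℕ} : isz x = true ↔ x = 0 := beq_iff
theorem isz_false_iff {x : ℕ} : isz x = false ↔ x ≠ 0 := by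
  rw [Ne, ← isz_iff, Bool.not_eq_true]

/-- `f` holds for all nonzero entries. -/
noncomputable def allE (X : ℕ) (f : ℕ → Bool) : Bool := allLt (nat_lit 10) fun i => ifz (ent X i) true f
/-- `f` holds for some nonzero entry. -/
noncomputable def anyE (X : ℕ) (f : ℕ → Bool) : Bool :=
  anyLt (nat_lit 10) fun i => ifz (ent X (Nat.sub (nat_lit 9) i)) false f
/-- A loop over the nonzero entries. -/
noncomputable def foldE (X : ℕ) (f : ℕ → ℕ → ℕ) (Y : ℕ) : ℕ :=
  Nat.rec (motive := fun _ => ℕ → ℕ) (fun Z => Z)
    (fun i ih Z => ifz (ent X i) (ih Z) fun x => forceN (f Z x) ih) (nat_lit 10) Y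

/-- Sifting: fuel, position, code. -/
noncomputable def sf (X n : ℕ) : ℕ → ℕ → ℕ :=
  Nat.rec (motive := fun _ => ℕ → ℕ → ℕ) (fun _ c => Nat.mod c (nat_lit 59049))
    (fun _ ih i c => ifz c (nat_lit 0) fun c => ifz (dg c i) (ih (Nat.succ i) c) fun _ =>
      ifz (ent X i) (Nat.mod c (nat_lit 59049)) fun y => forceN (ml c y) fun d =>
        ifz (dg d i) (ih (Nat.succ i) d) fun _ => forceN (ml d y) (ih (Nat.succ i))) n
/-- The residue. -/
noncomputable def res (X c : ℕ) : ℕ := sf X (nat_lit 10) (nat_lit 0) c
/-- Membership test. -/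
noncomputable def mem (X c : ℕ) : Bool := isz (res X c)
/-- The position of the lowest nonzero digit. -/
noncomputable def ld (c : ℕ) : ℕ :=
  Nat.rec (motive := fun _ => ℕ → ℕ) (fun i => i) (fun _ ih i => ifz (dg c i) (ih (Nat.succ i)) fun _ => i)
    (nat_lit 9) (nat_lit 0)
/-- Insertion of a residue. -/
noncomputable def ins (Y c : ℕ) : ℕ :=
  ifz (res Y c) Y fun r => forceN (ld r) fun i => ifz (ent Y i) (put Y i r) fun _ => Y
/-- Insertion of all entries of `Z`. -/
noncomputable def insA (Y Z : ℕ) : ℕ := foldE Z ins Y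
/-- Insertion of all commutators. -/
noncomputable def cmA (A B Y : ℕ) : ℕ := foldE A (fun Z a => foldE B (fun Z b => ins Z (cm a b)) Z) Y
/-- Insertion of the cubes and of the commutators of pairs. -/
noncomputable def phY (X : ℕ) : ℕ :=
  Nat.rec (motive := fun _ => ℕ → ℕ) (fun Z => Z) (fun i ih Z => ifz (ent X i) (ih Z) fun x =>
    forceN (foldE (Nat.mod X (Nat.shiftLeft (nat_lit 1) (Nat.shiftLeft i (nat_lit 4)))) (fun Z a => ins Z (cm a x))
      (ins Z (cu x))) ih) (nat_lit 10) (nat_lit 0)
/-- The entries have the right lowest digits. -/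
noncomputable def ldOK (X : ℕ) : Bool :=
  allLt (nat_lit 10) fun i => ifz (ent X i) true fun x => band (isz (Nat.mod x (p3 i))) (bnot (isz (dg x i)))
/-- All entries of `Z` pass the membership test for `Y`. -/
noncomputable def leA (Z Y : ℕ) : Bool := allE Z (mem Y)
/-- All commutators pass the membership test for `Y`. -/
noncomputable def cmIn (A B Y : ℕ) : Bool := allE A fun a => allE B fun b => mem Y (cm a b)
/-- The normal words in the entries form a subgroup. -/
noncomputable def clOK (Y : ℕ) : Bool := band (allE Y fun y => mem Y (cu y)) (cmIn Y Y Y)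
/-- `f` holds for the normal words in the entries of `X` at the empty fields of `L`: fuel, position. -/
noncomputable def alR (X L n : ℕ) : ℕ → (ℕ → Bool) → Bool :=
  Nat.rec (motive := fun _ => ℕ → (ℕ → Bool) → Bool) (fun _ f => f (nat_lit 0)) (fun _ ih q f =>
    ifz (ent X q) (ih (Nat.succ q) f) fun x => ifz (ent L q)
      (ih (Nat.succ q) fun a => band (f a) (forceB (ml x a) fun b => band (f b) (forceB (ml x b) f)))
      fun _ => ih (Nat.succ q) f) n
/-- `f` holds for coset representatives. -/
noncomputable def allR (X L : ℕ) (f : ℕ → Bool) : Bool := alR X L (nat_lit 10) (nat_lit 0) f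
/-- The entries of `Y`, completed by those of `X`. -/
noncomputable def mrg (X Y : ℕ) : ℕ := pack (nat_lit 16) (fun i => ifz (ent Y i) (ent X i) fun y => y) (nat_lit 10)
/-- The array of `Sm g k`. -/
noncomputable def smA (k : ℕ) : ℕ := pack (nat_lit 16) (fun i => cnd (Nat.ble k i) (p3 i) (nat_lit 0)) (nat_lit 10)
/-- One step towards the normal closure. -/
noncomputable def grow (Y : ℕ) : ℕ := cmA Y (smA 0) (foldE Y (fun Z y => ins Z (cu y)) Y)
/-- An array from a list. -/
noncomputable def arr (l : List ℕ) : ℕ := F2.joinN (nat_lit 16) l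
/-- The number of nonzero entries. -/
noncomputable def cnt (X : ℕ) : ℕ := foldE X (fun n _ => Nat.succ n) 0

/-- `L` describes `{x ∈ H | [x, A] ≤ B}`. -/
noncomputable def csOK (X A B L : ℕ) : Bool :=
  band (ldOK L) (band (leA L X) (band (cmIn L A B)
    (allR X L fun y => bor (isz y) (anyE A fun a => bnot (mem B (cm y a))))))
/-- `L` describes `[A, B]`. -/
noncomputable def cmOK (X A B L : ℕ) : Bool :=
  band (band (ldOK L) (clOK L)) (band (leA L (cmA A B 0)) (band (cmIn A B L) (cmIn L X L)))
/-- `L` describes `Ω₁(A)`. -/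
noncomputable def omOK (A L : ℕ) : Bool :=
  band (band (ldOK L) (clOK L)) (band (leA L A) (band (allE L fun x => isz (cu x))
    (allR A 0 fun y => bor (bnot (isz (cu y))) (mem L y))))
/-- One operation. -/
noncomputable def opOK (X t A B L : ℕ) : Bool :=
  ifz t (csOK X A B L) fun t => ifz (Nat.pred t) (cmOK X A B L) fun _ => omOK A L
/-- A program: `n` operations of 192 bits each (tag and two indices of 8 bits, unused 8 bits, the array). -/
noncomputable def prog (X : ℕ) (k : List ℕ → Bool) (n : ℕ) : ℕ → List ℕ → Bool :=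
  Nat.rec (motive := fun _ => ℕ → List ℕ → Bool) (fun _ env => k env) (fun _ ih P env =>
    forceB (Nat.land (Nat.shiftRight P (nat_lit 32)) (msk (nat_lit 160))) fun L =>
      forceB (F2.nth (nat_lit 0) env (get (nat_lit 8) P (nat_lit 1))) fun A =>
        forceB (F2.nth (nat_lit 0) env (get (nat_lit 8) P (nat_lit 2))) fun B =>
          band (opOK X (get (nat_lit 8) P (nat_lit 0)) A B L)
            (forceB (Nat.shiftRight P (nat_lit 192)) fun P' => ih P' (L :: env))) n
/-- `s` acts trivially on `A Φ / B Φ`, where `Y` is an array for `Φ`. -/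
noncomputable def tvOK (Y s A B : ℕ) : Bool := forceB (insA Y B) fun Z => allE A fun x => mem Z (cm x s)
/-- `s` normalizes the subgroup and does not lie in it. -/
noncomputable def nrOK (X s : ℕ) : Bool := band (bnot (mem X s)) (allE X fun x => mem X (cj s x))
/-- The certificate `D`: an element (16 bits), the number of operations (16 bits), the operations. -/
noncomputable def killOK (X Y D : ℕ) : Bool :=
  forceB (ent D (nat_lit 0)) fun s => band (nrOK X s)
    (prog X (fun env => forceB (F2.nth (nat_lit 0) env (nat_lit 0)) fun C =>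
      band (tvOK Y s X C) (tvOK Y s C (nat_lit 0))) (ent D (nat_lit 1)) (Nat.shiftRight D (nat_lit 32)) [nat_lit 0, X])

/-- The representative number `j`. -/
noncomputable def cls (T j : ℕ) : ℕ := forceN j fun j => get (nat_lit 160) T j
/-- The certificate `t` for the subgroup with the array `M`: `s` in the lower 16 bits, then `0` (`s` centralizes the
subgroup and does not lie in it) or `j + 1` (`s` conjugates the subgroup to the representative `j`). -/
noncomputable def prOK (T N M t : ℕ) : Bool :=
  forceB (ent t (nat_lit 0)) fun s => ifz (ent t (nat_lit 1))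
    (band (bnot (mem M s)) (allE M fun x => Nat.beq (ml x s) (ml s x))) fun j =>
    band (Nat.ble j N) (forceB (cls T (Nat.pred j)) fun Z => forceB (iv s) fun r =>
      allLt (nat_lit 10) fun i => ifz (ent Z i) (isz (ent M i)) fun z => forceB (ml (ml r z) s) (mem M))
/-- The maximal subgroups without the entry `y` of `X`: fuel, position, array, index, weight. -/
noncomputable def cutR (X Y y : ℕ) (k : ℕ → ℕ → Bool) (n : ℕ) : ℕ → ℕ → ℕ → ℕ → Bool :=
  Nat.rec (motive := fun _ => ℕ → ℕ → ℕ → ℕ → Bool)
    (fun _ M d w => forceB M fun M => k M (Nat.add (Nat.shiftRight w (nat_lit 1)) d)) (fun _ ih q M d w =>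
    ifz (ent X q) (ih (Nat.succ q) M d w) fun x => ifz (ent Y q)
      (forceB (Nat.mul (nat_lit 3) w) fun w' => band (ih (Nat.succ q) (put M q x) d w')
        (forceB (ml x y) fun x' => band (ih (Nat.succ q) (put M q x') (Nat.add d w) w')
          (forceB (ml x' y) fun x'' => ih (Nat.succ q) (put M q x'') (Nat.add d (Nat.add w w)) w')))
      fun _ => ih (Nat.succ q) (put M q x) d w) n
/-- The array without the fields `0, …, p`. -/
def hiA (X p : ℕ) : ℕ :=
  Nat.shiftLeft (Nat.shiftRight X (Nat.shiftLeft (Nat.succ p) (nat_lit 4))) (Nat.shiftLeft (Nat.succ p) (nat_lit 4))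
/-- All maximal subgroups. -/
noncomputable def maxOK (X Y : ℕ) (k : ℕ → ℕ → Bool) : Bool :=
  allLt (nat_lit 10) fun p => ifz (ent X p) true fun y => ifz (ent Y p)
    (forceB (hiA X p) fun M => cutR X Y y k p (nat_lit 0) M (nat_lit 0) (nat_lit 1)) fun _ => true
/-- The check for the representative `j`; `sv` lists the representatives that are not excluded. -/
noncomputable def clsOK (T N : ℕ) (sv : List ℕ) (j C D : ℕ) : Bool :=
  forceB (cls T j) fun X => band (ldOK X) (forceB (phY X) fun Y => band (ldOK Y)
    (band (forceB (mrg X Y) fun X' => maxOK X' Y fun M i => forceB (get (nat_lit 32) C i) (prOK T N M))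
      (ifz D (F2.memN j sv) fun D => killOK X Y D)))
/-- The checks for consecutive representatives. -/
noncomputable def runOK (T N : ℕ) (sv : List ℕ) (l : List (ℕ × ℕ)) : ℕ → Bool :=
  List.rec (motive := fun _ => ℕ → Bool) (fun _ => true)
    (fun a _ ih j => band (clsOK T N sv j a.1 a.2) (forceB (Nat.succ j) ih)) l

theorem runOK_spec {T N : ℕ} {sv : List ℕ} {l : List (ℕ × ℕ)} {j : ℕ} (e : runOK T N sv l j = true) :
    ∀ i, j ≤ i → i < j + l.length → ∃ C D, clsOK T N sv i C D = true := by
  induction l generalizing j with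
  | nil => intro i h1 h2; simp at h2; omega
  | cons a l ih =>
    have e' : band (clsOK T N sv j a.1 a.2) (forceB (Nat.succ j) (runOK T N sv l)) = true := e
    rw [band_eq_true, forceB_eq] at e'
    intro i h1 h2
    rcases h1.eq_or_lt with rfl | h1
    · exact ⟨_, _, e'.1⟩
    · exact ih e'.2 i h1 (by simp at h2 ⊢; omega)

end Cfsg.Lib.TS
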